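/- helper555: non-simple half of S3923, one involution -/
import Cfsg.Agent.H555.HgQ.Base
import Cfsg.Agent.S3099
import Cfsg.Agent.S2119

set_option autoImplicit false
set_option linter.unusedSectionVars false

namespace Cfsg.Agent.H555.HgQ

open Subgroup Cfsg.Agent.H486.Hg

universe u v
variable {G : Type u} [Group G] [Finite G]

theorem oddCore_bot (hL : Loc G) (hq : Cfsg.IsQuasisimple G) (hns : ¬ IsSimpleGroup G) :
    Cfsg.oddCore G = ⊥ := by
  rw [Cfsg.oddCore, Cfsg.pPrimeCore, sSup_eq_bot]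
  rintro N ⟨hN, hc⟩
  obtain ⟨z, hz, hz2⟩ := exists_central hL hq hns
  rcases Cfsg.Agent.Lib.ComponentSolvable.quasisimple_normal_cases hq hN with h | h
  · exfalso
    have h1 : 2 ∣ Nat.card N := by
      rw [h, Subgroup.card_top, ← hz2]; exact orderOf_dvd_natCard z
    exact Nat.Prime.not_coprime_iff_dvd.mpr ⟨2, Nat.prime_two, h1, dvd_rfl⟩ hc
  · by_contra hne
    have h1 : Nat.card N ≠ 1 := fun h2 => hne (Subgroup.card_eq_one.mp h2)
    obtain ⟨p, hp, hpd⟩ := Nat.exists_prime_and_dvd h1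
    have hpF : Fact p.Prime := ⟨hp⟩
    obtain ⟨x, hx⟩ := exists_prime_orderOf_dvd_card' p hpd
    have hp2 : p ≠ 2 := by
      rintro rfl
      exact Nat.Prime.not_coprime_iff_dvd.mpr ⟨2, Nat.prime_two, hpd, dvd_rfl⟩ hc
    exact no_odd hL hq hp hp2 (h x.2) (by rw [Subgroup.orderOf_coe, hx])

/-- `2.A₇` is not homogeneous -/
theorem no_two_a7 (hH : Homog G) (f : G →* alternatingGroup (Fin 7)) (hf : Function.Surjective f)
    (hker : ∀ x : G, f x = 1 ↔ x * x = 1) : False := by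
  -- the two elements
  let c1 : Equiv.Perm (Fin 7) := c[0, 1, 2]
  let c2 : Equiv.Perm (Fin 7) := c[0, 1, 2] * c[3, 4, 5]
  have hc1 : c1 ∈ alternatingGroup (Fin 7) := by
    rw [Equiv.Perm.mem_alternatingGroup]; decide
  have hc2 : c2 ∈ alternatingGroup (Fin 7) := by
    rw [Equiv.Perm.mem_alternatingGroup]; decide
  have h13 : c1 ^ 3 = 1 := by decide
  have h23 : c2 ^ 3 = 1 := by decide
  have h1s : c1.support.card = 3 := by decide
  have h2s : c2.support.card = 6 := by decide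
  have hlift : ∀ c : alternatingGroup (Fin 7), c ^ 3 = 1 → c ≠ 1 → ∃ x : G, orderOf x = 3 ∧ f x = c := by
    intro c hc hc1
    obtain ⟨g, hg⟩ := hf c
    have h4 : f (g ^ 4) = c := by
      rw [map_pow, hg, pow_succ, hc, one_mul]
    have h3 : f (g ^ 3) = 1 := by rw [map_pow, hg, hc]
    rw [hker] at h3
    have hp3 : Fact (Nat.Prime 3) := ⟨Nat.prime_three⟩
    refine ⟨g ^ 4, orderOf_eq_prime ?_ ?_, h4⟩
    · have : (g ^ 4) ^ 3 = (g ^ 3 * g ^ 3) * (g ^ 3 * g ^ 3) := by group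
      rw [this, h3, one_mul]
    · intro h
      rw [h, map_one] at h4
      exact hc1 h4.symm
  obtain ⟨x1, hx1, hf1⟩ := hlift ⟨c1, hc1⟩ (Subtype.ext h13) (by
    intro h
    have h' : c1 = 1 := congrArg Subtype.val h
    rw [h'] at h1s; simp at h1s)
  obtain ⟨x2, hx2, hf2⟩ := hlift ⟨c2, hc2⟩ (Subtype.ext h23) (by
    intro h
    have h' : c2 = 1 := congrArg Subtype.val h
    rw [h'] at h2s; simp at h2s)
  obtain ⟨φ, hφ⟩ := exists_aut_of_orderOf hH (hx1.trans hx2.symm)
  have hmap : f.ker.map φ.toMonoidHom = f.ker := by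
    ext x
    rw [MonoidHom.mem_ker, hker]
    constructor
    · rintro ⟨y, hy, rfl⟩
      rw [SetLike.mem_coe, MonoidHom.mem_ker, hker] at hy
      change φ y * φ y = 1
      rw [← map_mul, hy, map_one]
    · intro hx
      refine ⟨φ.symm x, ?_, φ.apply_symm_apply x⟩
      rw [SetLike.mem_coe, MonoidHom.mem_ker, hker, ← map_mul, hx, map_one]
  let e2 : G ⧸ f.ker ≃* alternatingGroup (Fin 7) := QuotientGroup.quotientKerEquivOfSurjective f hf
  let ψ : MulAut (alternatingGroup (Fin 7)) :=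
    e2.symm.trans ((QuotientGroup.congr f.ker f.ker φ hmap).trans e2)
  have hψ : ∀ g : G, ψ (f g) = f (φ g) := by
    intro g
    have h1 : e2 (QuotientGroup.mk g) = f g := rfl
    change e2 ((QuotientGroup.congr f.ker f.ker φ hmap) (e2.symm (f g))) = f (φ g)
    rw [← h1, MulEquiv.symm_apply_apply]
    rfl
  obtain ⟨σ, hσ⟩ := (Cfsg.Agent.S2119.result 7 (by norm_num) (by norm_num)).2 ψ
  have h1 : ψ ⟨c1, hc1⟩ = ⟨c2, hc2⟩ := by rw [← hf1, hψ, hφ, hf2]
  rw [← hσ] at h1
  have h2 : σ * c1 * σ⁻¹ = c2 := congrArg Subtype.val h1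
  have h3 : (σ * c1 * σ⁻¹).support.card = c1.support.card := Equiv.Perm.card_support_conj
  rw [h2, h1s, h2s] at h3
  omega

/-- one involution -/
theorem rank_one (hH : Homog G) (hL : Loc G) (hq : Cfsg.IsQuasisimple G) (hns : ¬ IsSimpleGroup G)
    (h2 : ∀ (F : Type) [Field F] [Fintype F], Odd (Fintype.card F) → 3 < Fintype.card F →
      Nonempty (G ≃* Matrix.SpecialLinearGroup (Fin 2) F) → Fintype.card F = 5)
    (hinv : ∀ t : G, orderOf t = 2 → t ∈ center G) (hc : Nat.card (Om hinv) = 2) :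
    ∃ (F : Type) (_ : Field F) (_ : Fintype F), Fintype.card F = 5 ∧
      Nonempty (G ≃* Matrix.SpecialLinearGroup (Fin 2) F) := by
  have hO := oddCore_bot hL hq hns
  obtain ⟨z, hz, hz2⟩ := exists_central hL hq hns
  have hrank : Cfsg.PRankLE 2 1 G := by
    intro A _ hA
    have h1 : A ≤ Om hinv := by
      intro a ha
      rw [mem_Om, ← pow_two]; exact hA a ha
    have h3 := Subgroup.card_le_of_le h1
    rw [hc] at h3
    exact h3
  have heven : Even (Nat.card G) := by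
    rw [even_iff_two_dvd, ← hz2]; exact orderOf_dvd_natCard z
  let e0 : G ≃* G ⧸ Cfsg.oddCore G :=
    (QuotientGroup.quotientBot.symm).trans (QuotientGroup.quotientMulEquivOfEq hO).symm
  rcases Cfsg.Agent.S3099.result hq.1 hrank heven with ⟨F, i1, i2, hF1, hF2, ⟨e⟩⟩ | ⟨h3, ⟨e⟩, _⟩
  · exact ⟨F, i1, i2, h2 F hF1 hF2 ⟨e0.trans e⟩, ⟨e0.trans e⟩⟩
  · exfalso
    let f : G →* alternatingGroup (Fin 7) :=
      e.toMonoidHom.comp ((QuotientGroup.mk' (center (G ⧸ Cfsg.oddCore G))).comp e0.toMonoidHom)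
    have hf : Function.Surjective f :=
      e.surjective.comp ((QuotientGroup.mk'_surjective _).comp e0.surjective)
    have hk : ∀ x : G, f x = 1 ↔ e0 x ∈ center (G ⧸ Cfsg.oddCore G) := by
      intro x
      change e (QuotientGroup.mk (e0 x)) = 1 ↔ _
      rw [MulEquiv.map_eq_one_iff, QuotientGroup.eq_one_iff]
    have hkc : Nat.card f.ker = 2 := by
      rw [← h3]
      refine Nat.card_congr ⟨fun x => ⟨e0 x, (hk _).mp x.2⟩, fun y => ⟨e0.symm y, (hk _).mpr (by
        rw [MulEquiv.apply_symm_apply]; exact y.2)⟩, fun x => ?_, fun y => ?_⟩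
      · exact Subtype.ext (e0.symm_apply_apply _)
      · exact Subtype.ext (e0.apply_symm_apply _)
    have hkle : f.ker ≤ Om hinv := by
      intro x hx
      have h5 : (⟨x, hx⟩ : f.ker) ^ 2 = 1 := by
        rw [← hkc]; exact pow_card_eq_one'
      rw [mem_Om, ← pow_two]
      exact congrArg Subtype.val h5
    have hkeq : f.ker = Om hinv := Subgroup.eq_of_le_of_card_ge hkle (by rw [hc, hkc])
    apply no_two_a7 hH f hf
    intro x
    rw [← MonoidHom.mem_ker, hkeq, mem_Om]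

end Cfsg.Agent.H555.HgQ
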