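/- helper555: non-simple half of S3923, seven involutions -/
import Cfsg.Agent.H555.HgQ.Base
import Cfsg.Agent.H486.HgGL

set_option autoImplicit false
set_option linter.unusedSectionVars false

namespace Cfsg.Agent.H555.HgQ

open Subgroup Cfsg.Agent.H486.Hg Cfsg.Agent.Schreier.Basic

universe u v
variable {G : Type u} [Group G] [Finite G]

theorem Om_comm {hinv : ∀ t : G, orderOf t = 2 → t ∈ center G} (x y : Om hinv) : x * y = y * x :=
  Subtype.ext (mem_center_iff.mp (Om_le hinv y.2) x)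

theorem Om_sq {hinv : ∀ t : G, orderOf t = 2 → t ∈ center G} (x : Om hinv) : x ^ 2 = 1 :=
  Subtype.ext (by
    have h : (x : G) * x = 1 := x.2
    rw [Subgroup.coe_pow, pow_two, h, Subgroup.coe_one])

/-- a transvection -/
def M2 : Matrix.SpecialLinearGroup (Fin 3) (ZMod 2) := ⟨!![1, 1, 0; 0, 1, 0; 0, 0, 1], by decide⟩

theorem M2_ne : ¬ ((![0, 1, 0] : Fin 3 → ZMod 2) 0 = M2.1.mulVec ![0, 1, 0] 0) := by
  decide

/-- seven involutions are impossible -/
theorem rank_three (hS : Sch G) (hH : Homog G)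
    (hinv : ∀ t : G, orderOf t = 2 → t ∈ center G) (hc : Nat.card (Om hinv) = 8) : False := by
  have hp2 : Fact (Nat.Prime 2) := ⟨Nat.prime_two⟩
  obtain ⟨c⟩ := exists_equiv (p := 2) (k := 3) (A := Om hinv) Om_comm Om_sq (by rw [hc]; norm_num)
  obtain ⟨g, hg⟩ := exists_inner_sl hS hH c (Or.inl le_rfl) M2
  have h1 := hg (c.symm (Multiplicative.ofAdd ![0, 1, 0]))
  have h2 : g * (c.symm (Multiplicative.ofAdd ![0, 1, 0]) : G) * g⁻¹ =
      (c.symm (Multiplicative.ofAdd ![0, 1, 0]) : G) := by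
    have h3 := mem_center_iff.mp (Om_le hinv (c.symm (Multiplicative.ofAdd ![0, 1, 0])).2) g
    rw [h3, mul_inv_cancel_right]
  rw [h2] at h1
  have h4 := c.symm.injective (Subtype.ext h1)
  rw [MulEquiv.apply_symm_apply] at h4
  have h5 := congrArg Multiplicative.toAdd h4
  exact M2_ne (congrFun h5 0)

end Cfsg.Agent.H555.HgQ
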